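import Mathlib
import Cfsg.Agent.Lib.Helper41.CS3.GoodDefs
import Cfsg.Agent.Lib.Helper71.CS3.Basics
import Cfsg.Agent.Lib.Helper24.CS3.NGTools

/-!
# CS3 (S4284), part GOOD, package [S1] (Step 1)
-/

set_option autoImplicit false

namespace Cfsg.Agent.Lib.Helper84.CS3

open Cfsg.Agent.Lib.Helper41.CS3 Cfsg.Agent.Lib.Helper81.CS3

universe u

/-- a prime dividing `n = t ^ k` (with `1 < n`) does not divide `m`. -/
theorem not_dvd_m_of_pow {G : Type u} [Group G] {m n t : ℕ} (hyp : Hyp G m n) (ht : t.Prime)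
    (htn : ∃ k : ℕ, n = t ^ k) : ¬ t ∣ m := by
  obtain ⟨k, hk⟩ := htn
  have hk0 : k ≠ 0 := by
    rintro rfl
    have := hyp.2.2.1
    simp at hk
    omega
  have htn : t ∣ n := by rw [hk]; exact dvd_pow_self t hk0
  intro h
  have h1 : t ∣ Nat.gcd m n := Nat.dvd_gcd h htn
  rw [hyp.2.2.2.1] at h1
  exact ht.one_lt.ne' (Nat.dvd_one.mp h1)

/-- an element of `t`-power order centralizing a `t`-subgroup `T` of index prime to `t`
lies in `T`. -/
theorem mem_of_centralizes {G : Type u} [Group G] [Finite G] {t : ℕ} (ht : t.Prime)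
    {T : Subgroup G} (hT : IsPGroup t T) (hsyl : ¬ t ∣ T.index) {y : G}
    (hy : ∃ k : ℕ, orderOf y = t ^ k) (hc : ∀ x ∈ T, y * x = x * y) : y ∈ T := by
  haveI : Fact t.Prime := ⟨ht⟩
  have hz : IsPGroup t (Subgroup.zpowers y) := by
    obtain ⟨k, hk⟩ := hy
    apply IsPGroup.of_card (n := k)
    rw [Nat.card_zpowers, hk]
  have hnorm : Subgroup.zpowers y ≤ Subgroup.normalizer (T : Set G) := by
    rw [Subgroup.zpowers_le, Subgroup.mem_normalizer_iff]
    intro x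
    constructor
    · intro hx
      have h1 : y * x * y⁻¹ = x := by rw [hc x hx]; group
      rw [h1]; exact hx
    · intro hx
      have h1 := hc _ hx
      have h2 : x = y * x * y⁻¹ := by
        calc x = y⁻¹ * (y * x * y⁻¹ * y) := by group
          _ = y⁻¹ * (y * (y * x * y⁻¹)) := by rw [h1]
          _ = y * x * y⁻¹ := by group
      rw [h2]; exact hx
  have hsup : IsPGroup t (Subgroup.zpowers y ⊔ T : Subgroup G) :=
    IsPGroup.to_sup_of_normal_right' hz hT hnorm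
  have hmax := (hT.toSylow hsyl).is_maximal' hsup (by
    show T ≤ Subgroup.zpowers y ⊔ T
    exact le_sup_right)
  have hmem : y ∈ (Subgroup.zpowers y ⊔ T : Subgroup G) :=
    (le_sup_left : Subgroup.zpowers y ≤ _) (Subgroup.mem_zpowers y)
  rw [hmax] at hmem
  exact hmem

theorem pkgS1_of (hSylow : PkgSylow.{u}) : PkgS1.{u} := by
  intro G _ _ m n hyp s t a Sa T B hgood hbad
  by_cases hex : ∃ y1 ∈ T, ix y1 = m * n
  · obtain ⟨y1, hy1, h⟩ := hex
    exact ⟨y1, hy1, Or.inl h⟩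
  have hex' : ∀ y1 ∈ T, ix y1 ≠ m * n := fun y1 hy1 h => hex ⟨y1, hy1, h⟩
  have hnab := hbad.nab
  have hnab' : ∃ y' ∈ T, ∃ z ∈ T, y' * z ≠ z * y' := by
    by_contra hcon
    apply hnab
    intro x hx y hy
    by_contra hxy
    exact hcon ⟨x, hx, y, hy, hxy⟩
  obtain ⟨y', hy'T, z, hzT, hyz⟩ := hnab'
  have hy'nc : y' ∉ Subgroup.center G := by
    intro h
    exact hyz ((Subgroup.mem_center_iff.mp h z).symm)
  have hix : ix y' = m := by
    rcases Cfsg.Agent.Lib.Helper71.CS3.idx_cases hyp y' with h | h | h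
    · exact absurd ((Cfsg.Agent.Lib.Helper71.CS3.idx_eq_one_iff y').mp h) hy'nc
    · exact h
    · exact absurd h (hex' y' hy'T)
  have htm : ¬ t ∣ m := not_dvd_m_of_pow hyp hbad.tp hbad.tn
  haveI : Fact t.Prime := ⟨hbad.tp⟩
  obtain ⟨g, hg⟩ := hSylow t hbad.tp T (Cn y') hbad.pT (by
    have : (Cn y').index = m := hix
    rw [this]; exact htm)
  have hcomm : ∀ x ∈ T, (g⁻¹ * y' * g) * x = x * (g⁻¹ * y' * g) := by
    intro x hx
    have h1 := hg x hx
    simp only [Subgroup.mem_centralizer_iff, Set.mem_singleton_iff, forall_eq] at h1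
    calc g⁻¹ * y' * g * x = g⁻¹ * (y' * (g * x * g⁻¹)) * g := by group
      _ = g⁻¹ * (g * x * g⁻¹ * y') * g := by rw [h1]
      _ = x * (g⁻¹ * y' * g) := by group
  have hord : ∃ k : ℕ, orderOf (g⁻¹ * y' * g) = t ^ k := by
    obtain ⟨k, hk⟩ := IsPGroup.iff_orderOf.mp hbad.pT ⟨y', hy'T⟩
    refine ⟨k, ?_⟩
    have h1 := Cfsg.Agent.Lib.Helper24.CS3.orderOf_conj' g⁻¹ y'
    rw [inv_inv] at h1
    rw [h1, ← hk]
    exact (Subgroup.orderOf_mk y' hy'T).symm
  have hy1T : g⁻¹ * y' * g ∈ T := mem_of_centralizes hbad.tp hbad.pT hbad.sylT hord hcomm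
  refine ⟨g⁻¹ * y' * g, hy1T, Or.inr ⟨hcomm, ?_⟩⟩
  intro hcen
  apply hy'nc
  have h1 := (inferInstance : (Subgroup.center G).Normal).conj_mem _ hcen g
  have h2 : g * (g⁻¹ * y' * g) * g⁻¹ = y' := by group
  rw [h2] at h1
  exact h1

end Cfsg.Agent.Lib.Helper84.CS3
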