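import Mathlib
import Cfsg.Agent.Lib.Helper41.CS3.GoodDefs
import Cfsg.Agent.Lib.Helper71.CS3.Basics
import Cfsg.Agent.Lib.Helper24.CS3.NGTools
import Cfsg.Agent.Lib.Helper84.CS3.F4
import Cfsg.Agent.Lib.Helper84.CS3.GoodS1

/-!
# CS3 (S4284), part GOOD, package [S3] (Step 3)
-/

set_option autoImplicit false

namespace Cfsg.Agent.Lib.Helper84.CS3

open Cfsg.Agent.Lib.Helper41.CS3 Cfsg.Agent.Lib.Helper81.CS3

universe u

/-- membership in the centralizer of a conjugate. -/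
theorem mem_cn_conj_iff {G : Type u} [Group G] (g w x : G) :
    x ∈ Cn (g * w * g⁻¹) ↔ g⁻¹ * x * g ∈ Cn w := by
  rw [mem_cent_iff, mem_cent_iff]
  constructor
  · intro h
    have h' : x * (g * w * g⁻¹) = g * w * g⁻¹ * x := h
    show g⁻¹ * x * g * w = w * (g⁻¹ * x * g)
    calc g⁻¹ * x * g * w = g⁻¹ * (x * (g * w * g⁻¹)) * g := by group
      _ = g⁻¹ * (g * w * g⁻¹ * x) * g := by rw [h']
      _ = w * (g⁻¹ * x * g) := by group
  · intro h
    have h' : g⁻¹ * x * g * w = w * (g⁻¹ * x * g) := h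
    show x * (g * w * g⁻¹) = g * w * g⁻¹ * x
    calc x * (g * w * g⁻¹) = g * (g⁻¹ * x * g * w) * g⁻¹ := by group
      _ = g * (w * (g⁻¹ * x * g)) * g⁻¹ := by rw [h']
      _ = g * w * g⁻¹ * x := by group

/-- if `g T g⁻¹ ≤ C(v)` then `g⁻¹ v g` centralizes `T`. -/
theorem conj_centralizes {G : Type u} [Group G] {T : Subgroup G} {g v : G}
    (hg : ∀ x ∈ T, g * x * g⁻¹ ∈ Cn v) : ∀ x ∈ T, (g⁻¹ * v * g) * x = x * (g⁻¹ * v * g) := by
  intro x hx
  have h1 := hg x hx
  simp only [Subgroup.mem_centralizer_iff, Set.mem_singleton_iff, forall_eq] at h1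
  calc g⁻¹ * v * g * x = g⁻¹ * (v * (g * x * g⁻¹)) * g := by group
    _ = g⁻¹ * (g * x * g⁻¹ * v) * g := by rw [h1]
    _ = x * (g⁻¹ * v * g) := by group

theorem pkgS3_of (hSylow : PkgSylow.{u}) : PkgS3.{u} := by
  intro G _ _ m n hyp t a A T hixa hconf v hixv
  have htm : ¬ t ∣ m := not_dvd_m_of_pow hyp hconf.tp hconf.tn
  obtain ⟨g, hg⟩ := hSylow t hconf.tp T (Cn v) hconf.pT (by
    have : (Cn v).index = m := hixv
    rw [this]; exact htm)
  have hcomm := conj_centralizes hg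
  have hmemT : g⁻¹ * v * g ∈ Subgroup.centralizer (T : Set G) := by
    rw [Subgroup.mem_centralizer_iff]
    intro x hx
    exact (hcomm x hx).symm
  have hmema : g⁻¹ * v * g ∈ Cn a := hconf.cent hmemT
  have hAT : A ⊔ T ≤ Subgroup.centralizer (A : Set G) := by
    apply sup_le
    · intro x hx
      rw [Subgroup.mem_centralizer_iff]
      intro y hy
      exact hconf.a_ab y hy x hx
    · intro x hx
      rw [Subgroup.mem_centralizer_iff]
      intro y hy
      exact hconf.a_t y hy x hx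
  have hmemA : g⁻¹ * v * g ∈ Subgroup.centralizer (A : Set G) := by
    apply hAT
    rw [hconf.sup]
    exact hmema
  have hle : Cn a ≤ Cn (g⁻¹ * v * g) := by
    rw [← hconf.sup]
    apply sup_le
    · intro x hx
      rw [mem_cent_iff]
      exact (Subgroup.mem_centralizer_iff.mp hmemA x hx)
    · intro x hx
      rw [mem_cent_iff]
      exact (hcomm x hx).symm
  have hidx : idx a = idx (g⁻¹ * v * g) := by
    have h1 := Cfsg.Agent.Lib.Helper24.CS3.idx_conj g⁻¹ v
    rw [inv_inv] at h1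
    rw [h1]
    exact hixa.trans hixv.symm
  have heq : Cn a = Cn (g⁻¹ * v * g) := cent_eq_of_le_of_idx hle hidx
  refine ⟨g, ?_⟩
  ext x
  have hv : v = g * (g⁻¹ * v * g) * g⁻¹ := by group
  rw [mem_cn_conj_iff g a x]
  rw [heq]
  rw [← mem_cn_conj_iff g (g⁻¹ * v * g) x, ← hv]

end Cfsg.Agent.Lib.Helper84.CS3
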